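import Mathlib
import Cfsg.Agent.H942.CB.Chk

/-!
# S5919: central elements of centralisers in `E₈(3)`

For `x` of order prime to 3 with alcove vector `Y` (modulo `N`), a twist `w` with `w Y = 3 Y` and a second vector
`Y'` (modulo `N'`) with `w Y' = 3 Y'` vanishing on the roots on which `Y` vanishes, there is `x'` in `E₈(3)` commuting
with `x` and fixing all the fixed vectors of `x`.
-/

set_option autoImplicit false
set_option linter.unusedSectionVars false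
set_option maxRecDepth 100000

namespace Cfsg.Agent.H540.E8C

open CoxeterSystem Cfsg Cfsg.Lie Cfsg.Lie.ChevalleyDatum
open Cfsg.Agent.ChevalleyStructure Cfsg.Agent.ChevalleyStructure.Elts Cfsg.Agent.ChevalleyStructure.CoxeterGeom
  Cfsg.Agent.ChevalleyStructure.CoxeterGeomTypes Cfsg.Agent.ChevalleyStructure.NPerm
  Cfsg.Agent.ChevalleyStructure.RootVec Cfsg.Agent.ChevalleyStructure.RootVecTab
open Cfsg.Agent.Tits.Roots Cfsg.Agent.Tits.Core Cfsg.Agent.Nodes Cfsg.Agent.Nodes.Reps Cfsg.Agent.Nodes.BNOf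
  Cfsg.Agent.Nodes.RGDChev Cfsg.Agent.Nodes.Bruhat Cfsg.Agent.Nodes.SubComb Cfsg.Agent.Nodes.Coroot
  Cfsg.Agent.Nodes.NormalForm
open Cfsg.Agent.KFacts.RgdField Cfsg.Agent.KFacts.RgdChevCoord Cfsg.Agent.BpExc.TorCent Cfsg.Agent.BpExc.TorChev
open Cfsg.Agent.GpExc.Field Cfsg.Agent.BpExc.Tow Cfsg.Agent.BpExc.TowChev Cfsg.Agent.BpExc.Fr
  Cfsg.Agent.BpExc.LangFr Cfsg.Agent.LangThm Cfsg.Agent.BpExc Cfsg.Agent.H129.TorusChar Cfsg.Agent.H129.TorusMain
open Cfsg.Agent.H720.TorusReal Cfsg.Agent.Nodes.Unique Cfsg.Agent.H897.T5Cent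
open Cfsg.Agent.BpExc.FamUntw Cfsg.Agent.BpExc.FamInst Cfsg.Agent.BpExc.FamField
open Cfsg.Agent.H942.E8Tab Cfsg.Agent.H942.E8Alc Cfsg.Agent.H942.CB
open Cfsg.Agent.H944.Tab Cfsg.Agent.H944.Kac
open scoped commutatorElement

/-- the check -/
def chkC (N N' : ℕ) (Y Y' : List ℕ) (ω : List ℕ) : Bool :=
  decide (Y.length = 8) && decide (Y'.length = 8) && okw ω &&
  ((List.range 8).all fun i => decide (((actW ω (YZ Y)).getD i 0 - 3 * (YZ Y).getD i 0) % (N : ℤ) = 0)) &&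
  ((List.range 8).all fun i => decide (((actW ω (YZ Y')).getD i 0 - 3 * (YZ Y').getD i 0) % (N' : ℤ) = 0)) &&
  ((SL N Y).all fun r => Nat.beq (dotN r Y' % N') 0)

/-- the character of a torus element with the values `ζ ^ Y i` on the simple roots -/
theorem cX_of_vals {N : ℕ} {Y : List ℕ} {k : Type*} [Field k] {t : ↥(chevE8.group k)} (ht : t ∈ TT chevE8 k)
    {ζ : k} (hζ : IsPrimitiveRoot ζ N) (hN0 : N ≠ 0) (hv : ∀ i, cX e8T t (sr i) = ζ ^ (vecL N Y i).val) (a : Fin 8 → ℤ) :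
    cX e8T t a = ζ ^ fz (YZ Y) a := by
  have : NeZero N := ⟨hN0⟩
  have hζ0 : ζ ≠ 0 := hζ.ne_zero hN0
  have h1 : IsMC fun a : Fin 8 → ℤ => ζ ^ fz (YZ Y) a := ⟨by
    show ζ ^ fz (YZ Y) 0 = 1
    have : fz (YZ Y) 0 = 0 := by unfold fz; simp
    rw [this, zpow_zero], fun a b => by
    show ζ ^ fz (YZ Y) (a + b) = _
    rw [fz_add, zpow_add₀ hζ0]⟩
  refine (isMC_cX e8T ht).ext h1 (fun i => ?_) a
  rw [hv, fz_sr, YZ_getD, zpow_natCast]
  unfold vecL
  rw [ZMod.val_natCast]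
  exact pow_mod_orderOf' hζ _

theorem fz_dotN {Y : List ℕ} {r : List ℕ} (hr : r ∈ R8) : fz (YZ Y) (toR r) = ((dotN r Y : ℕ) : ℤ) := by
  rw [dotN_eq 8 r Y (len8 r hr)]
  unfold fz toR
  push_cast
  refine Finset.sum_congr rfl fun i _ => ?_
  rw [YZ_getD, mul_comm]

/-- the algebraic closure of the field with three elements -/
abbrev KK : Type := AlgebraicClosure (ZMod 3)

/-- roots killed by `t` are killed by `t'` -/
theorem root_kill {N N' : ℕ} {Y Y' : List ℕ} {t t' : ↥(chevE8.group KK)} (htT : t ∈ TT chevE8 KK)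
    (htT' : t' ∈ TT chevE8 KK) {ζ ζ' : KK} (hζ : IsPrimitiveRoot ζ N) (hζ' : IsPrimitiveRoot ζ' N')
    (hX : ∀ a, cX e8T t a = ζ ^ fz (YZ Y) a) (hX' : ∀ a, cX e8T t' a = ζ' ^ fz (YZ Y') a)
    (hS : ((SL N Y).all fun r => Nat.beq (dotN r Y' % N') 0) = true) {a : Fin 8 → ℤ}
    (ha : IsRoot cs8 e8T.isCartan a) (h1 : cX e8T t a = 1) : cX e8T t' a = 1 := by
  have key : ∀ a : Fin 8 → ℤ, IsRoot cs8 e8T.isCartan a → 0 ≤ a → cX e8T t a = 1 → cX e8T t' a = 1 := by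
    intro a ha h0 h1
    obtain ⟨r, hr, rfl⟩ := mem_pos_iff.1 ⟨ha, h0⟩
    rw [hX, hζ.zpow_eq_one_iff_dvd, fz_dotN hr, Int.natCast_dvd_natCast] at h1
    rw [List.all_eq_true] at hS
    have h2 := hS r (by
      unfold SL
      rw [List.mem_filter, Nat.beq_eq]
      exact ⟨hr, Nat.mod_eq_zero_of_dvd h1⟩)
    rw [Nat.beq_eq] at h2
    rw [hX', hζ'.zpow_eq_one_iff_dvd, fz_dotN hr, Int.natCast_dvd_natCast]
    exact Nat.dvd_of_mod_eq_zero h2
  rcases ha.pos_or_neg with h | h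
  · exact key a ha h h1
  · have h2 := key (-a) ha.neg (neg_nonneg.2 h) (by
      rw [(isMC_cX e8T htT).neg, h1, inv_one])
    rw [(isMC_cX e8T htT').neg, inv_eq_one] at h2
    exact h2

/-- **The central element.** -/
theorem centre {N N' : ℕ} {Y Y' : List ℕ} {ω : List ℕ} (hN0 : N ≠ 0) (hN : N.Coprime 3) (hN0' : N' ≠ 0)
    (hN' : N'.Coprime 3) (hc : chkC N N' Y Y' ω = true) {x : ↥(chevE8.group (ZMod 3))} (hx : x ^ N = 1)
    (hT : TorD e8T x N (vecL N Y)) :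
    ∃ x' : ↥(chevE8.group (ZMod 3)), x' ^ N' = 1 ∧ Commute x x' ∧
      (∀ v : chevE8.Idx → ZMod 3, (((x : GL chevE8.Idx (ZMod 3)) : Matrix chevE8.Idx chevE8.Idx (ZMod 3))).mulVec v = v →
        (((x' : GL chevE8.Idx (ZMod 3)) : Matrix chevE8.Idx chevE8.Idx (ZMod 3))).mulVec v = v) ∧
      (∀ d : ℕ, x' ^ d = 1 → ∀ i : Fin 8, N' ∣ d * Y'.getD i 0) ∧
      (N' = N → ∀ m : ℕ, x' = x ^ m → ∀ i : Fin 8, (N : ℤ) ∣ ((Y'.getD i 0 : ℕ) : ℤ) - m * ((Y.getD i 0 : ℕ) : ℤ)) := by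
  classical
  obtain ⟨z, t, ζ, hζ, hz, htT, hv⟩ := hT
  unfold chkC at hc
  simp only [Bool.and_eq_true, decide_eq_true_eq] at hc
  obtain ⟨⟨⟨⟨⟨hY8, hY8'⟩, hw8⟩, hwY⟩, hwY'⟩, hS⟩ := hc
  obtain ⟨f, hf⟩ : ∃ f : ZMod 3 →+* KK, f = algebraMap (ZMod 3) KK := ⟨_, rfl⟩
  rw [← hf] at hz
  have hkch : CharP KK 3 := charP_of_injective_algebraMap (algebraMap (ZMod 3) KK).injective 3
  have hlf : LocFin KK := locFin_of_isAlgebraic 3 KK
  have : NeZero N := ⟨hN0⟩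
  have : NeZero N' := ⟨hN0'⟩
  have hζ0 : ζ ≠ 0 := hζ.ne_zero hN0
  have hYl : (YZ Y).length = 8 := by unfold YZ; rw [List.length_map, hY8]
  have hYl' : (YZ Y').length = 8 := by unfold YZ; rw [List.length_map, hY8']
  have hX : ∀ a, cX e8T t a = ζ ^ fz (YZ Y) a := cX_of_vals htT hζ hN0 hv
  have hwl := okw_spec hw8
  -- the twist on `t`
  have hwt : ∀ a, cX e8T t (rep cs8 e8T.isCartan (word ω) a) = cX e8T t a ^ 3 ^ 1 := by
    intro a
    have hw3 : (N : ℤ) ∣ fz (YZ Y) (rep cs8 e8T.isCartan (word ω) a) - 3 * fz (YZ Y) a := by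
      rw [← fz_actW ω hwl hYl]
      exact fz_dvd (fun i => Int.dvd_of_emod_eq_zero (of_decide_eq_true (all_range hwY i))) a
    rw [hX, hX]
    obtain ⟨m, hm⟩ := hw3
    have h1 : fz (YZ Y) (rep cs8 e8T.isCartan (word ω) a) = fz (YZ Y) a * 3 + N * m := by linarith
    rw [h1, zpow_add₀ hζ0, zpow_mul, zpow_mul, zpow_natCast ζ N, hζ.pow_eq_one, one_zpow, mul_one]
    exact zpow_ofNat _ 3
  -- the second root of unity and the second torus element
  obtain ⟨ζ', hζ', hζζ⟩ : ∃ ζ' : KK, IsPrimitiveRoot ζ' N' ∧ (N' = N → ζ' = ζ) := by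
    by_cases h : N' = N
    · subst h
      exact ⟨ζ, hζ, fun _ => rfl⟩
    · obtain ⟨ζ', h1⟩ := exists_prim' (k := KK) 3 hN0' hN'
      exact ⟨ζ', h1, fun h2 => absurd h2 h⟩
  have hζ0' : ζ' ≠ 0 := hζ'.ne_zero hN0'
  have hMC : IsMC fun a : Fin 8 → ℤ => ζ' ^ fz (YZ Y') a := ⟨by
    show ζ' ^ fz (YZ Y') 0 = 1
    have : fz (YZ Y') 0 = 0 := by unfold fz; simp
    rw [this, zpow_zero], fun a b => by
    show ζ' ^ fz (YZ Y') (a + b) = _
    rw [fz_add, zpow_add₀ hζ0']⟩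
  obtain ⟨t', htT', hX'⟩ := exists_cX e8T invC_E8 one_ne_zero hMC
    (fun i => IsAlgClosed.exists_pow_nat_eq _ one_pos)
  have hwt' : ∀ a, cX e8T t' (rep cs8 e8T.isCartan (word ω) a) = cX e8T t' a ^ 3 ^ 1 := by
    intro a
    have hw3 : (N' : ℤ) ∣ fz (YZ Y') (rep cs8 e8T.isCartan (word ω) a) - 3 * fz (YZ Y') a := by
      rw [← fz_actW ω hwl hYl']
      exact fz_dvd (fun i => Int.dvd_of_emod_eq_zero (of_decide_eq_true (all_range hwY' i))) a
    rw [hX', hX']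
    obtain ⟨m, hm⟩ := hw3
    have h1 : fz (YZ Y') (rep cs8 e8T.isCartan (word ω) a) = fz (YZ Y') a * 3 + N' * m := by linarith
    rw [h1, zpow_add₀ hζ0', zpow_mul, zpow_mul, zpow_natCast ζ' N', hζ'.pow_eq_one, one_zpow, mul_one]
    exact zpow_ofNat _ 3
  -- Lang
  have hNs : NSys CoxeterMatrix.E₈ (TT chevE8 KK) (nc e8T KK) := nsysT e8T hlf 3
  have hn : Nat.card (ZMod 3) = 3 ^ 1 := by rw [Nat.card_eq_fintype_card, ZMod.card]; rfl
  obtain ⟨σ, hσ⟩ : ∃ σ : MulAut ↥(chevE8.group KK), σ = phi chevE8 KK 3 1 := ⟨_, rfl⟩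
  have hσF : IsFrob 3 1 σ := by rw [hσ]; exact phi_isFrob 3 1
  have F : Fr cs8 e8T.isCartan (TT chevE8 KK) (XX chevE8 8 KK) σ (AddEquiv.refl _) := by
    rw [hσ]; exact phi_fr e8T cs8 3 hlf 1
  have hσx : σ (emb e8T.inList f x) = emb e8T.inList f x := by
    rw [hσ]; exact Cfsg.Agent.H378.TorFin.phi_emb' e8T f 3 hn x
  obtain ⟨n1, hn1⟩ := exists_rp cs8 hNs (word ω)
  have hnt : n1 * σ t * n1⁻¹ = t := (tau_iff e8T cs8 hlf hσF F hn1 htT).2 hwt
  have hnt' : n1 * σ t' * n1⁻¹ = t' := (tau_iff e8T cs8 hlf hσF F hn1 htT').2 hwt'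
  have htN : t ^ N = 1 := by
    rw [← hz]
    have h1 : (z⁻¹ * emb e8T.inList f x * z) ^ N = z⁻¹ * (emb e8T.inList f x) ^ N * z := by
      have := conj_pow (i := N) (a := z⁻¹) (b := emb e8T.inList f x)
      rwa [inv_inv] at this
    rw [h1, ← map_pow, hx, map_one, mul_one, inv_mul_cancel]
  have hC := con_of_frm' (p := 3) e8T cs8 hlf frm8 invC_E8 (N := N) (Nat.coprime_one_left N) hN0 hN
  obtain ⟨z1, hz1, hz2⟩ := star e8T cs8 hlf 3 hC one_pos hσF F invC_E8 one_ne_zero hn1 hσx hz htT htN hnt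
  have h3 : σ z1 = z1 * n1 := by rw [← hz1]; group
  have h4 : σ (z1 * t' * z1⁻¹) = z1 * t' * z1⁻¹ := by
    rw [map_mul, map_mul, map_inv, h3]
    calc z1 * n1 * σ t' * (z1 * n1)⁻¹ = z1 * (n1 * σ t' * n1⁻¹) * z1⁻¹ := by group
      _ = _ := by rw [hnt']
  rw [hσ] at h4
  obtain ⟨x', hx'⟩ := Cfsg.Agent.H378.TorFin.fix_mem e8T f 3 hn invC_E8 h4
  have hxt : emb e8T.inList f x = z1 * t * z1⁻¹ := by rw [← hz2]; group
  have hinj := emb_injective e8T.inList f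
  have hpow : ∀ d : ℕ, emb e8T.inList f (x' ^ d) = z1 * t' ^ d * z1⁻¹ := by
    intro d
    rw [map_pow, hx', conj_pow]
  refine ⟨x', ?_, ?_, ?_, ?_, ?_⟩
  · apply hinj
    rw [hpow, map_one]
    have h5 : t' ^ N' = 1 := by
      refine cX_inj e8T (pow_mem htT' _) (one_mem _) fun i => ?_
      rw [cX_pow e8T htT', cX_one, hX', ← zpow_natCast, ← zpow_mul, mul_comm, zpow_mul, zpow_natCast,
        hζ'.pow_eq_one, one_zpow]
    rw [h5, mul_one, mul_inv_cancel]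
  · apply hinj
    rw [map_mul, map_mul, hxt, hx']
    have h5 : t * t' = t' * t := Cfsg.Agent.BpExc.TorChev.TT_comm e8T t htT t' htT'
    calc z1 * t * z1⁻¹ * (z1 * t' * z1⁻¹) = z1 * (t * t') * z1⁻¹ := by group
      _ = z1 * (t' * t) * z1⁻¹ := by rw [h5]
      _ = _ := by group
  · intro v hv1
    obtain ⟨M, hM⟩ : ∃ M : ↥(chevE8.group KK) → Matrix chevE8.Idx chevE8.Idx KK,
        ∀ g, M g = ((g : GL chevE8.Idx KK) : Matrix chevE8.Idx chevE8.Idx KK) := ⟨_, fun _ => rfl⟩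
    have hMm : ∀ a b, M (a * b) = M a * M b := fun a b => by
      rw [hM, hM, hM, Subgroup.coe_mul, Units.val_mul]
    have hM1 : ∀ a, M a * M a⁻¹ = 1 := fun a => by
      rw [← hMm, mul_inv_cancel, hM]; rfl
    have hM2 : ∀ a, M a⁻¹ * M a = 1 := fun a => by
      rw [← hMm, inv_mul_cancel, hM]; rfl
    have hemb : ∀ (g : ↥(chevE8.group (ZMod 3))) (v : chevE8.Idx → ZMod 3),
        (M (emb e8T.inList f g)).mulVec (fun i => f (v i)) = fun i => f (((((g : GL chevE8.Idx (ZMod 3)) :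
          Matrix chevE8.Idx chevE8.Idx (ZMod 3))).mulVec v) i) := by
      intro g v
      rw [hM, coe_emb, coe_glMap]
      funext i
      exact (RingHom.map_mulVec f _ v i).symm
    have hM' : ∀ (g g' : ↥(chevE8.group KK)) (u : chevE8.Idx → KK), (M (z1 * g * z1⁻¹)).mulVec u = u ↔
        (M g).mulVec ((M z1⁻¹).mulVec u) = (M z1⁻¹).mulVec u := by
      intro g g' u
      rw [hMm, hMm]
      constructor
      · intro h
        have h6 := congrArg (fun u => (M z1⁻¹).mulVec u) h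
        simp only [Matrix.mulVec_mulVec] at h6 ⊢
        rw [← mul_assoc, ← mul_assoc, hM2, one_mul] at h6
        exact h6
      · intro h
        have h6 := congrArg (fun u => (M z1).mulVec u) h
        simp only [Matrix.mulVec_mulVec] at h6 ⊢
        rw [hM1, Matrix.one_mulVec] at h6
        rw [mul_assoc]
        exact h6
    have hu : (M (emb e8T.inList f x)).mulVec (fun i => f (v i)) = fun i => f (v i) := by
      rw [hemb, hv1]
    rw [hxt, hM' t t] at hu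
    have hu' : (M t').mulVec ((M z1⁻¹).mulVec (fun i => f (v i))) = (M z1⁻¹).mulVec (fun i => f (v i)) := by
      obtain ⟨u, hue⟩ : ∃ u, u = (M z1⁻¹).mulVec (fun i => f (v i)) := ⟨_, rfl⟩
      rw [← hue] at hu ⊢
      rw [hM, TT_diag' e8T htT] at hu
      rw [hM, TT_diag' e8T htT']
      funext i
      have h7 := congrFun hu i
      rw [Matrix.mulVec_diagonal] at h7 ⊢
      rcases i with i | s
      · simp
      · simp only [Sum.elim_inr] at h7 ⊢
        by_cases h0 : u (Sum.inr s) = 0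
        · rw [h0, mul_zero]
        · have h8 : cX e8T t (vec chevE8 8 s) = 1 := by
            have h9 : cX e8T t (vec chevE8 8 s) * u (Sum.inr s) = 1 * u (Sum.inr s) := by rw [one_mul]; exact h7
            exact mul_right_cancel₀ h0 h9
          rw [root_kill htT htT' hζ hζ' hX hX' hS ((isRoot_iff e8T cs8 _).2 ⟨s, s.2, rfl⟩) h8, one_mul]
    have h8 : (M (emb e8T.inList f x')).mulVec (fun i => f (v i)) = fun i => f (v i) := by
      rw [hx', hM' t' t']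
      exact hu'
    rw [hemb] at h8
    funext i
    exact f.injective (congrFun h8 i)
  · intro d hd i
    have h5 : t' ^ d = 1 := by
      have h6 := hpow d
      rw [hd, map_one] at h6
      have h7 : t' ^ d = z1⁻¹ * (z1 * t' ^ d * z1⁻¹) * z1 := by group
      rw [h7, ← h6]
      group
    have h6 := congrArg (fun g => cX e8T g (sr i)) h5
    simp only [cX_pow e8T htT', cX_one, hX', fz_sr, YZ_getD] at h6
    rw [zpow_natCast, ← pow_mul, hζ'.pow_eq_one_iff_dvd] at h6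
    rwa [mul_comm] at h6
  · intro hNN m hm i
    have h5 : t' = t ^ m := by
      have h6 := hx'
      rw [hm, map_pow, hxt, conj_pow] at h6
      exact (mul_left_cancel (mul_right_cancel h6)).symm
    have h6 := congrArg (fun g => cX e8T g (sr i)) h5
    simp only [cX_pow e8T htT, hX, hX', fz_sr, YZ_getD, hζζ hNN] at h6
    rw [← zpow_natCast (ζ ^ _), ← zpow_mul] at h6
    have h7 : ζ ^ (((Y'.getD i 0 : ℕ) : ℤ) - m * ((Y.getD i 0 : ℕ) : ℤ)) = 1 := by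
      rw [zpow_sub₀ hζ0, h6, mul_comm, div_self (zpow_ne_zero _ hζ0)]
    exact (hζ.zpow_eq_one_iff_dvd _).1 h7

end Cfsg.Agent.H540.E8C
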