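import Mathlib
import Cfsg.Prelude.Def_Local
import Cfsg.Prelude.Def_ChevE8
import Cfsg.Agent.H834.E8.NoFix

/-!
# S5919: the end game for maximal subgroups of `E₈(3)` with fixed vectors: CENTRE and COUNT
-/

set_option autoImplicit false
set_option linter.unusedSectionVars false
set_option maxRecDepth 100000

namespace Cfsg.Agent.H540.E8C.End

open Cfsg Cfsg.Lie

/-- `E₈(3)` -/
abbrev E : Type := ↥(chevE8.group (ZMod 3))

/-- its module -/
abbrev LL : Type := chevE8.Idx → ZMod 3

/-- the action -/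
abbrev ac (g : E) (v : LL) : LL := (((g : GL chevE8.Idx (ZMod 3)) : Matrix chevE8.Idx chevE8.Idx (ZMod 3))).mulVec v

theorem ac_one (v : LL) : ac 1 v = v := Matrix.one_mulVec v

theorem ac_mul (g h : E) (v : LL) : ac (g * h) v = ac g (ac h v) := by
  show (((g : GL chevE8.Idx (ZMod 3)) * (h : GL chevE8.Idx (ZMod 3)) : GL chevE8.Idx (ZMod 3)) :
    Matrix chevE8.Idx chevE8.Idx (ZMod 3)).mulVec v = _
  rw [Units.val_mul, ← Matrix.mulVec_mulVec]

theorem ac_inv_ac (g : E) (v : LL) : ac g⁻¹ (ac g v) = v := by rw [← ac_mul, inv_mul_cancel, ac_one]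

theorem ac_ac_inv (g : E) (v : LL) : ac g (ac g⁻¹ v) = v := by rw [← ac_mul, mul_inv_cancel, ac_one]

theorem ac_neg (g : E) (v : LL) : ac g (-v) = - ac g v := Matrix.mulVec_neg _ _

theorem ac_add (g : E) (v w : LL) : ac g (v + w) = ac g v + ac g w := Matrix.mulVec_add _ _ _

theorem ac_zero (g : E) : ac g 0 = 0 := Matrix.mulVec_zero _

/-- the stabiliser of a vector -/
def stab (v : LL) : Subgroup E where
  carrier := {g | ac g v = v}
  one_mem' := ac_one v
  mul_mem' := fun {a b} ha hb => by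
    show ac (a * b) v = v
    rw [ac_mul, hb, ha]
  inv_mem' := fun {a} ha => by
    show ac a⁻¹ v = v
    have ha' : ac a v = v := ha
    conv_lhs => rw [← ha']
    rw [ac_inv_ac]

theorem mem_stab {v : LL} {g : E} : g ∈ stab v ↔ ac g v = v := Iff.rfl

/-- the vectors fixed by a subgroup -/
def fixV (S : Subgroup E) : Submodule (ZMod 3) LL where
  carrier := {v | ∀ g ∈ S, ac g v = v}
  add_mem' := fun ha hb g hg => by rw [ac_add, ha g hg, hb g hg]
  zero_mem' := fun g _ => ac_zero g
  smul_mem' := fun c v hv g hg => (Matrix.mulVec_smul _ _ _).trans (congrArg (fun w => c • w) (hv g hg))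

theorem mem_fixV {S : Subgroup E} {v : LL} : v ∈ fixV S ↔ ∀ g ∈ S, ac g v = v := Iff.rfl

theorem simp : IsSimpleGroup E := Cfsg.Agent.H834.E8.noFix.1

theorem fixV_top : fixV ⊤ = ⊥ := by
  rw [Submodule.eq_bot_iff]
  intro v hv
  exact Cfsg.Agent.H834.E8.noFix.2 v fun g hg => hv ⟨g, hg⟩ (Subgroup.mem_top _)

theorem notComm (h : ∀ a b : E, a * b = b * a) : False :=
  (Cfsg.Agent.S1054.result (F := ZMod 3) chevE8 (by simp)).2 ⟨⟨h⟩⟩

/-- a normal subgroup with a non-zero fixed vector is trivial -/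
theorem normal_bot {K : Subgroup E} [K.Normal] (h : fixV K ≠ ⊥) : K = ⊥ := by
  have := simp
  rcases ‹K.Normal›.eq_bot_or_eq_top with h1 | h1
  · exact h1
  · rw [h1] at h
    exact absurd fixV_top h

section E8

variable {H : Subgroup E} (hH : IsCoatom H)

include hH in
/-- a non-trivial subgroup with non-zero fixed vectors normalised by the maximal subgroup `H` lies in `H` -/
theorem le_of_norm {K : Subgroup E} (hK : K ≠ ⊥) (hKv : fixV K ≠ ⊥) (hn : H ≤ Subgroup.normalizer (K : Set E)) :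
    K ≤ H := by
  have h1 : Subgroup.normalizer (K : Set E) ≠ ⊤ := by
    intro h
    have : K.Normal := Subgroup.normalizer_eq_top_iff.1 h
    exact hK (normal_bot hKv)
  have h2 : Subgroup.normalizer (K : Set E) = H := by
    rcases hH.le_iff.1 hn with h | h
    · exact absurd h h1
    · exact h
  rw [← h2]
  exact Subgroup.le_normalizer

include hH in
/-- **CENTRE.** `S` a non-trivial normal subgroup of the maximal subgroup `H` with a non-zero fixed vector; an element
fixing all the vectors fixed by some `x ∈ S` lies in `H`. -/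
theorem mem_of_partner {S : Subgroup E} (hS1 : S ≠ ⊥) (hn : H ≤ Subgroup.normalizer (S : Set E)) (hv : fixV S ≠ ⊥)
    {x x' : E} (hx : x ∈ S) (hx' : ∀ v, ac x v = v → ac x' v = v) : x' ∈ H := by
  let K : Subgroup E := ⨅ v : fixV S, stab v
  have hmem : ∀ g, g ∈ K ↔ ∀ v ∈ fixV S, ac g v = v := by
    intro g
    simp only [K, Subgroup.mem_iInf, mem_stab, Subtype.forall]
  have hSK : S ≤ K := fun g hg => (hmem g).2 fun v hv => hv g hg
  have hinv : ∀ h ∈ H, ∀ v ∈ fixV S, ac h v ∈ fixV S := by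
    intro h hh v hv g hg
    have h1 : h⁻¹ * g * h ∈ S := by
      have := (Subgroup.mem_normalizer_iff.1 (hn (H.inv_mem hh)) g).1 hg
      rwa [inv_inv] at this
    have h2 := hv _ h1
    have h3 : g * h = h * (h⁻¹ * g * h) := by group
    rw [← ac_mul, h3, ac_mul, h2]
  have hK : K ≠ ⊥ := fun h => hS1 (le_bot_iff.1 (h ▸ hSK))
  have hKv : fixV K ≠ ⊥ := by
    intro h
    apply hv
    rw [Submodule.eq_bot_iff] at h ⊢
    intro v hv
    exact h v fun g hg => (hmem g).1 hg v hv
  refine le_of_norm hH hK hKv (fun h hh => ?_) ((hmem x').2 fun v hv => hx' v (hv x hx))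
  rw [Subgroup.mem_normalizer_iff]
  intro g
  rw [hmem, hmem]
  constructor
  · intro hg v hv
    rw [ac_mul, ac_mul, hg _ (hinv _ (H.inv_mem hh) v hv), ac_ac_inv]
  · intro hg v hv
    have h1 := hg _ (hinv h hh v hv)
    rw [ac_mul, ac_mul, ac_inv_ac] at h1
    have h2 := congrArg (ac h⁻¹) h1
    rwa [ac_inv_ac, ac_inv_ac] at h2

/-- the stabiliser of `{v, -v}` -/
def stab2 (v : LL) : Subgroup E where
  carrier := {g | ac g v = v ∨ ac g v = -v}
  one_mem' := Or.inl (ac_one v)
  mul_mem' := fun {a b} ha hb => by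
    show ac (a * b) v = v ∨ ac (a * b) v = -v
    rcases ha with ha | ha <;> rcases hb with hb | hb <;> simp [ac_mul, ha, hb, ac_neg]
  inv_mem' := fun {a} ha => by
    show ac a⁻¹ v = v ∨ ac a⁻¹ v = -v
    rcases ha with ha | ha
    · left
      conv_lhs => rw [← ha]
      rw [ac_inv_ac]
    · right
      have h1 : v = - ac a v := by rw [ha, neg_neg]
      conv_lhs => rw [h1]
      rw [ac_neg, ac_inv_ac]

theorem stab2_ne_top {v : LL} (hv : v ≠ 0) : stab2 v ≠ ⊤ := by
  intro h
  have := simp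
  have hchar : (v : LL) ≠ -v := by
    intro h1
    apply hv
    funext i
    have h2 : v i = - v i := congrFun h1 i
    have h3 : ∀ a : ZMod 3, a = -a → a = 0 := by decide
    exact h3 _ h2
  -- the stabiliser of `v` is normal
  have hn : (stab v).Normal := by
    constructor
    intro n hn g
    have hg : g ∈ stab2 v := by rw [h]; exact Subgroup.mem_top g
    have hg' : g⁻¹ ∈ stab2 v := by rw [h]; exact Subgroup.mem_top _
    rw [mem_stab, ac_mul, ac_mul]
    have hn' : ac n v = v := hn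
    rcases hg' with h1 | h1
    · rw [h1, hn']
      have := ac_ac_inv g v
      rwa [h1] at this
    · rw [h1, ac_neg, hn', ← h1, ac_ac_inv]
  have hfix : fixV (stab v) ≠ ⊥ := by
    intro h1
    rw [Submodule.eq_bot_iff] at h1
    exact hv (h1 v fun g hg => hg)
  have hbot := normal_bot hfix
  -- then all elements except 1 negate `v`
  have hcard : ∀ g g' : E, g ≠ 1 → g' ≠ 1 → g = g' := by
    intro g g' hg hg'
    have key : ∀ g : E, g ≠ 1 → ac g v = -v := by
      intro g hg
      have h1 : g ∈ stab2 v := by rw [h]; exact Subgroup.mem_top g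
      rcases h1 with h1 | h1
      · exfalso
        apply hg
        have h2 : g ∈ stab v := h1
        rwa [hbot, Subgroup.mem_bot] at h2
      · exact h1
    have h1 : g⁻¹ * g' ∈ stab v := by
      rw [mem_stab, ac_mul, key g' hg', ac_neg]
      have h2 : ac g⁻¹ v = -v := key g⁻¹ (inv_ne_one.2 hg)
      rw [h2, neg_neg]
    rw [hbot, Subgroup.mem_bot, inv_mul_eq_one] at h1
    exact h1
  -- the group would have order at most two, hence be abelian, fixing ...
  have hcomm : ∀ a b : E, a * b = b * a := by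
    intro a b
    by_cases ha : a = 1
    · rw [ha, one_mul, mul_one]
    · by_cases hb : b = 1
      · rw [hb, one_mul, mul_one]
      · rw [hcard a b ha hb]
  exact notComm hcomm

include hH in
/-- the maximal subgroup is the stabiliser of `{v, -v}` -/
theorem stab2_eq {v : LL} (hv : v ≠ 0) (h : ∀ g ∈ H, ac g v = v ∨ ac g v = -v) : stab2 v = H := by
  have h1 : H ≤ stab2 v := h
  rcases hH.le_iff.1 h1 with h2 | h2
  · exact absurd h2 (stab2_ne_top hv)
  · exact h2

include hH in
theorem normalizer_eq (hne : H ≠ ⊥) : Subgroup.normalizer (H : Set E) = H := by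
  rcases hH.le_iff.1 (Subgroup.le_normalizer (H := H)) with h | h
  · exfalso
    have := simp
    have hn : H.Normal := Subgroup.normalizer_eq_top_iff.1 h
    rcases hn.eq_bot_or_eq_top with h1 | h1
    · exact hne h1
    · exact hH.1 h1
  · exact h

end E8

section Abs

/-- counting in the abstract: translates of `B` by the centraliser of `y` -/
theorem count_abs {G V : Type*} [Group G] [Finite G] [Finite V] (A : G → V → V) (h1 : ∀ v, A 1 v = v)
    (hmul : ∀ g h v, A (g * h) v = A g (A h v)) {H : Subgroup G} {y : G} {B : Finset V}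
    (hB : ∀ b ∈ B, A y b = b) (hm : ∀ b ∈ B, ∀ b' ∈ B, ∀ m, A m b = b' → m ∈ H) {c : ℕ}
    (hc : Nat.card ↥(Subgroup.centralizer {y} ⊓ H) ≤ c) :
    B.card * Nat.card ↥(Subgroup.centralizer {y}) ≤ c * Nat.card {v : V // A y v = v} := by
  classical
  have hi : ∀ g v, A g⁻¹ (A g v) = v := fun g v => by rw [← hmul, inv_mul_cancel, h1]
  obtain ⟨C, hC⟩ : ∃ C, C = Subgroup.centralizer ({y} : Set G) := ⟨_, rfl⟩
  rw [← hC] at hc ⊢
  have hCm : ∀ g ∈ C, g * y = y * g := fun g hg => by
    rw [hC] at hg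
    exact Subgroup.mem_centralizer_singleton_iff.1 hg
  let f : B × C → {v : V // A y v = v} := fun p => ⟨A (p.2 : G) p.1, by
    rw [← hmul, ← hCm _ p.2.2, hmul, hB _ p.1.2]⟩
  have : Fintype ↥C := Fintype.ofFinite _
  have : Fintype {v : V // A y v = v} := Fintype.ofFinite _
  have : Fintype ↥(C ⊓ H) := Fintype.ofFinite _
  have hfib : ∀ v : {v : V // A y v = v}, (Finset.univ.filter fun p => f p = v).card ≤ c := by
    intro v
    by_cases h0 : (Finset.univ.filter fun p => f p = v).Nonempty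
    · obtain ⟨p0, hp0⟩ := h0
      rw [Finset.mem_filter] at hp0
      refine le_trans ?_ hc
      have hkey : ∀ p : B × C, f p = v → (((p0.2 : G))⁻¹ * (p.2 : G)) ∈ C ⊓ H ∧
          A ((p0.2 : G)⁻¹ * (p.2 : G)) p.1 = p0.1 := by
        intro p hp
        have h2 : A (p.2 : G) p.1 = A (p0.2 : G) p0.1 := congrArg Subtype.val (hp.trans hp0.2.symm)
        have h3 : A ((p0.2 : G)⁻¹ * (p.2 : G)) p.1 = p0.1 := by rw [hmul, h2, hi]
        exact ⟨Subgroup.mem_inf.2 ⟨C.mul_mem (C.inv_mem p0.2.2) p.2.2, hm _ p.1.2 _ p0.1.2 _ h3⟩, h3⟩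
      rw [Nat.card_eq_fintype_card, ← Finset.card_univ]
      refine Finset.card_le_card_of_injOn (fun p => if hp : f p = v then
        (⟨_, (hkey p hp).1⟩ : ↥(C ⊓ H)) else 1) (fun _ _ => Finset.mem_univ _) ?_
      intro p hp q hq hpq
      rw [Finset.coe_filter, Set.mem_ofPred_eq] at hp hq
      simp only [hp.2, hq.2, dif_pos] at hpq
      have h2 : ((p0.2 : G))⁻¹ * (p.2 : G) = ((p0.2 : G))⁻¹ * (q.2 : G) := congrArg Subtype.val hpq
      have h3 : (p.2 : G) = (q.2 : G) := mul_left_cancel h2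
      have h4 : A ((p0.2 : G)⁻¹ * (p.2 : G)) p.1 = A ((p0.2 : G)⁻¹ * (q.2 : G)) q.1 := by
        rw [(hkey p hp.2).2, (hkey q hq.2).2]
      rw [h2] at h4
      have h5 := congrArg (A ((p0.2 : G)⁻¹ * (q.2 : G))⁻¹) h4
      rw [hi, hi] at h5
      exact Prod.ext (Subtype.ext h5) (Subtype.ext h3)
    · rw [Finset.not_nonempty_iff_eq_empty.1 h0, Finset.card_empty]
      exact Nat.zero_le _
  have h2 : (Finset.univ : Finset (B × C)).card ≤ c * (Finset.univ : Finset {v : V // A y v = v}).card :=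
    Finset.card_le_mul_card_image_of_maps_to (f := f) (fun _ _ => Finset.mem_univ _) c fun v _ => hfib v
  rw [Finset.card_univ, Finset.card_univ, Fintype.card_prod, Fintype.card_coe] at h2
  rw [Nat.card_eq_fintype_card, Nat.card_eq_fintype_card]
  exact h2

/-- stabilisers up to sign -/
theorem norm_abs {G V : Type*} [Group G] [AddCommGroup V] (A : G → V → V) (h1 : ∀ v, A 1 v = v)
    (hmul : ∀ g h v, A (g * h) v = A g (A h v)) (hneg : ∀ g v, A g (-v) = - A g v) {H : Subgroup G} {b b' : V}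
    (hb : ∀ g, g ∈ H ↔ A g b = b ∨ A g b = -b) (hb' : ∀ g, g ∈ H ↔ A g b' = b' ∨ A g b' = -b') {m : G}
    (hm : A m b = b') : m ∈ Subgroup.normalizer (H : Set G) := by
  have hi : ∀ g v, A g⁻¹ (A g v) = v := fun g v => by rw [← hmul, inv_mul_cancel, h1]
  rw [Subgroup.mem_normalizer_iff]
  intro g
  rw [hb, hb', ← hm]
  have h8 : A (m * g * m⁻¹) (A m b) = A m (A g b) := by
    rw [← hmul, ← hmul]
    congr 1
    group
  rw [h8]
  have hinj : ∀ a b : V, A m a = A m b → a = b := fun a b hab => by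
    have := congrArg (A m⁻¹) hab
    rwa [hi, hi] at this
  constructor
  · rintro (h | h)
    · left; rw [h]
    · right; rw [h, hneg]
  · rintro (h | h)
    · left; exact hinj _ _ h
    · right; rw [← hneg] at h; exact hinj _ _ h

end Abs

section E8

variable {H : Subgroup E} (hH : IsCoatom H)

theorem mem_stab2 {v : LL} {g : E} : g ∈ stab2 v ↔ ac g v = v ∨ ac g v = -v := Iff.rfl

include hH in
theorem mem_of_map (hne : H ≠ ⊥) {b b' : LL} (hb : b ≠ 0) (hb' : b' ≠ 0) (h1 : ∀ g ∈ H, ac g b = b ∨ ac g b = -b)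
    (h2 : ∀ g ∈ H, ac g b' = b' ∨ ac g b' = -b') {m : E} (hm : ac m b = b') : m ∈ H := by
  have h4 := stab2_eq hH hb h1
  have h5 := stab2_eq hH hb' h2
  have h6 : ∀ g, g ∈ H ↔ ac g b = b ∨ ac g b = -b := fun g => by rw [← mem_stab2, h4]
  have h7 : ∀ g, g ∈ H ↔ ac g b' = b' ∨ ac g b' = -b' := fun g => by rw [← mem_stab2, h5]
  have h8 := norm_abs ac ac_one ac_mul ac_neg h6 h7 hm
  rwa [normalizer_eq hH hne] at h8

include hH in
/-- **COUNT.** `B` a set of non-zero vectors such that `H` fixes `{b, -b}` and `y` fixes `b`, for all `b ∈ B`. -/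
theorem count (hne : H ≠ ⊥) {y : E} {B : Finset LL}
    (hB : ∀ b ∈ B, b ≠ 0 ∧ ac y b = b ∧ ∀ g ∈ H, ac g b = b ∨ ac g b = -b) {c : ℕ}
    (hc : Nat.card ↥(Subgroup.centralizer {y} ⊓ H) ≤ c) :
    B.card * Nat.card ↥(Subgroup.centralizer {y}) ≤ c * Nat.card {v : LL // ac y v = v} :=
  count_abs ac ac_one ac_mul (fun b hb => (hB b hb).2.1)
    (fun b hb b' hb' _ hm => mem_of_map hH hne (hB b hb).1 (hB b' hb').1 (hB b hb).2.2 (hB b' hb').2.2 hm) hc

end E8

end Cfsg.Agent.H540.E8C.End
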